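import Cfsg.Agent.Oct.Cox
import Cfsg.Agent.Oct.Inv
import Cfsg.Agent.Chev.SuzukiCard
import Cfsg.Prelude.Def_Quasithin
import Cfsg.Prelude.Def_ChevF4

/-!
# Standard subgroups of type ²F₄(q): definitions

Even roots of the octagon are indexed by `k : ZMod 8` (`k` stands for the root `4 + 2 k`).
-/

set_option autoImplicit false
set_option linter.unusedSectionVars false

namespace Cfsg.Lib.SRe

open Subgroup Function Cfsg.Lib.Trans Cfsg.Lib.Oct Cfsg.Lib.Oct.UU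
open Cfsg.Lib.Gold hiding Oc
open Cfsg.Lib.Chev (Tw SzModel)
open scoped commutatorElement

section Pair

variable {K : Type*} [Field K] {G : Type*} [Group G]

/-- The subgroup generated by a family. -/
def Xs (x : K → G) : Subgroup G := closure (Set.range x)

/-- The product of the two root groups. -/
def RR (y : Bool → K → G) : Subgroup G := Xs (y true) ⊔ Xs (y false)

/-- The group generated by `RR y` and its opposite. -/
def KK (y : Bool → K → G) (w : G) : Subgroup G := RR y ⊔ cj w (RR y)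

/-- The torus of `KK y w`. -/
def HH (y : Bool → K → G) (w : G) : Subgroup G := KK y w ⊓ Ns (RR y) ⊓ Ns (cj w (RR y))

/-- Two commuting independent root groups. -/
structure Pr (y : Bool → K → G) : Prop where
  two0 : (2 : K) = 0
  add : ∀ s a b, y s (a + b) = y s a * y s b
  com : ∀ s s' a b, Commute (y s a) (y s' b)
  ind : ∀ a b, y true a * y false b = 1 → a = 0 ∧ b = 0

/-- Two root groups with a torus of rank two. -/
structure Tr (y : Bool → K → G) (w : G) : Prop extends Pr y where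
  ww : w * w = 1
  hc : ∀ g ∈ HH y w, ∀ g' ∈ HH y w, Commute g g'
  ho : ∀ g ∈ HH y w, Odd (orderOf g)
  act : ∀ g ∈ HH y w, ∀ s, ∃ c, ∀ a, g * y s a * g⁻¹ = y s (c * a)
  all : ∀ c d : K, c ≠ 0 → d ≠ 0 → ∃ g ∈ HH y w, (∀ a, g * y true a * g⁻¹ = y true (c * a)) ∧
    ∀ a, g * y false a * g⁻¹ = y false (d * a)

variable {τ : Tw K}

/-- A standard Suzuki subgroup `A` with `|C(A)|₂ = 2` and fusion of `t` in `t Z`. -/
structure YH (A : Subgroup G) (M : SzModel τ A) (t : G) : Prop where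
  t2 : t * t = 1
  t1 : t ≠ 1
  tc : t ∈ Cs A
  cn : C1 t ≤ Ns A
  two : ∀ c ∈ Cs A, Commute c t → ∀ k : ℕ, c ^ 2 ^ k = 1 → c = 1 ∨ c = t
  tr : ∀ b, ∃ g ∈ Ns (M.Z.map A.subtype), g * t * g⁻¹ = t * (M.T 0 b : G)

/-- The output of the Suzuki step. -/
structure Yo (A : Subgroup G) (M : SzModel τ A) (t : G) (y : Bool → K → G) : Prop
    extends Tr y (M.w : G) where
  swap : ∀ s a, t * y s a * t⁻¹ = y (!s) a
  prod : ∀ a, y true a * y false a = (M.T 0 a : G)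
  cQ : ∀ s a b c, Commute (y s a) (M.T b c : G)
  dm : ∀ l, (M.D l : G) ∈ HH y (M.w : G)
  nR : ∀ g ∈ Ns (M.Z.map A.subtype), g ∈ Ns (RR y)

/-- The wreathed case. -/
def YW (A : Subgroup G) (t : G) : Prop := ∃ X : Subgroup G, Nonempty (X ≃* A) ∧ X ≤ Cs (cj t X) ∧
  X ⊓ cj t X = ⊥ ∧ (X ⊔ cj t X).Normal ∧ A ≤ X ⊔ cj t X

/-- The symplectic case. -/
def YP (A : Subgroup G) (t : G) : Prop := ∃ N : Subgroup G, N.Normal ∧ A ≤ N ∧ t ∉ N ∧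
  ∃ (F : Type) (_ : Field F) (_ : Fintype F) (_ : CharP F 2), 2 < Fintype.card F ∧
    Nonempty (N ≃* PSp 2 F)

/-- The facts about two opposite Sylow subgroups of `N = Sp₄(2ⁿ)`; `X`, `Y` are the two root
subgroups in the centre of `P`. -/
structure SpD (N P P' X Y : Subgroup G) : Prop where
  zP : P ⊓ Cs P = X ⊔ Y
  inf : X ⊓ Y = ⊥
  sq : ∀ z ∈ X ⊔ Y, z * z = 1
  cX : 2 < Nat.card X
  cY : 2 < Nat.card Y
  gen : (P ⊓ Cs P) ⊔ (P' ⊓ Cs P') = N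
  hc : ∀ g ∈ N ⊓ Ns (P ⊓ Cs P : Subgroup G) ⊓ Ns (P' ⊓ Cs P' : Subgroup G),
    ∀ g' ∈ N ⊓ Ns (P ⊓ Cs P : Subgroup G) ⊓ Ns (P' ⊓ Cs P' : Subgroup G), Commute g g'
  ho : ∀ g ∈ N ⊓ Ns (P ⊓ Cs P : Subgroup G) ⊓ Ns (P' ⊓ Cs P' : Subgroup G),
    Odd (orderOf g) ∧ g ∈ Ns X ∧ g ∈ Ns Y
  tra : ∀ x ∈ X, ∀ x' ∈ X, ∀ z ∈ Y, ∀ z' ∈ Y, x ≠ 1 → x' ≠ 1 → z ≠ 1 → z' ≠ 1 →
    ∃ g ∈ N ⊓ Ns (P ⊓ Cs P : Subgroup G) ⊓ Ns (P' ⊓ Cs P' : Subgroup G),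
      g * x * g⁻¹ = x' ∧ g * z * g⁻¹ = z'
  mix : ∀ x ∈ X, ∀ z ∈ Y, x ≠ 1 → z ≠ 1 → N ⊓ C1 (x * z) = P
  lng : ∀ x ∈ X, ¬ N ⊓ C1 x ≤ P

/-- The facts about `N = Sp₄(2ⁿ)`. -/
def SpF (N : Subgroup G) : Prop := ∀ P P' : Subgroup G, IsSylowIn 2 P N → IsSylowIn 2 P' N →
  P ⊓ P' = ⊥ → ∃ X Y, SpD N P P' X Y

/-- A commutator of weight five. -/
def c5 (a b c d e : G) : G := ⁅a, ⁅b, ⁅c, ⁅d, e⁆⁆⁆⁆

/-- `L` is the diagonal of `G₁` and its conjugate under `t`. -/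
structure Wr (L G₁ : Subgroup G) (t : G) : Prop where
  com : G₁ ≤ Cs (cj t G₁)
  perf : ⁅G₁, G₁⁆ = G₁
  img : ∀ g ∈ G₁, g * (t * g * t⁻¹) ∈ L
  onto : ∀ l ∈ L, ∃ g ∈ G₁, g * (t * g * t⁻¹) = l

/-- The conclusion. -/
def Con (K : Type*) [Field K] (L : Subgroup G) : Prop :=
  ∃ G₀ : Subgroup G, G₀ ≤ oddGenerated (⊤ : Subgroup G) ∧
    Odd (G₀.relIndex (oddGenerated (⊤ : Subgroup G))) ∧
    (Nonempty (G₀ ≃* Lie.chevF4.group K) ∨ Nonempty (G₀ ≃* L × L))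

end Pair

variable {K : Type*} [Field K] [TwF K] {ρ : RK K} {G : Type*} [Group G]

/-- The relations in the case of `F₄(q)`: `true` stands for long roots. -/
structure T2 (X B : ZMod 8 → Bool → K → G) : Prop where
  addX : ∀ k s a b, X k s (a + b) = X k s a * X k s b
  addB : ∀ k s a b, B k s (a + b) = B k s a * B k s b
  c0 : ∀ k d, d = 0 ∨ d = 1 ∨ d = 2 → ∀ s s' a b, Commute (X k s a) (X (k + d) s' b)
  r1 : ∀ k s a b, ⁅X k s a, X (k + 3) (!s) b⁆ = X (k + 1) (!s) (σ a * b) * X (k + 2) s (a * σ b)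
  r2 : ∀ k s a b, ⁅X k s a, X (k + 3) s b⁆ = B k s (a * b)
  cB : ∀ k d, d = 0 ∨ d = 1 ∨ d = 2 ∨ d = 3 → ∀ s s' a b, Commute (B k s a) (X (k + d) s' b)
  cBB : ∀ k s s' a b, Commute (B k s a) (B k s' b)
  r3 : ∀ k s a b, ⁅X (k + 7) s a, B k s b⁆ = X k s (a * b)
  c3 : ∀ k s a b, Commute (X (k + 7) (!s) a) (B k s b)
  r4 : ∀ k s a b, ⁅X (k + 4) s a, B k s b⁆ = X (k + 3) s (a * b)
  c4 : ∀ k s a b, Commute (X (k + 4) (!s) a) (B k s b)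

variable (K) in
/-- The twist. -/
def τK : Tw K := ⟨σ, two0, σσ⟩

/-- The kernel of the character of the root `5`. -/
def j5 : Kˣ →* Kˣ × Kˣ := ((powMonoidHom 2).comp invMonoidHom).prod (MonoidHom.id Kˣ)

variable (O : Oc ρ G)

/-- The rotation `(m n) ^ k`. -/
def rw (k : ZMod 8) : G := Cx.φ O (.r k)

/-- Conjugation by a rotation. -/
def rot (k : ZMod 8) (g : G) : G := rw O k * g * (rw O k)⁻¹

/-- The central root elements. -/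
def cz (k : ZMod 8) (a : K) : G := rot O k (O.ι (x4 a))

/-- The reflection in the root `4`. -/
def n4 : G := rot O 6 O.n

/-- The torus of the Suzuki group of the root `4`. -/
def h4 (β : Kˣ) : G := rot O 6 (O.h β)

/-- The Suzuki group of the root `8`. -/
def S8 : Subgroup G := (U8 K).map O.ι ⊔ O.h.range ⊔ zpowers O.n

/-- The Suzuki group of the root `4`. -/
def S4 : Subgroup G := cj (rw O 6) (S8 O)

/-- The reflection in the root `4 + 2 k`. -/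
def wk (k : ZMod 8) : G := rot O k (n4 O)

/-- The subtorus centralising the root group `5`. -/
def T5c : Subgroup G := (O.η.comp j5).range

/-- Elements of odd order of `C(L) ∩ C(t)`. -/
def Od (t o : G) : Prop := o ∈ Cs O.GG ∧ Commute o t ∧ Odd (orderOf o)

section

variable (y : Bool → K → G)

/-- The new root elements. -/
def XX (k : ZMod 8) (s : Bool) (a : K) : G := rot O k (y s a)

/-- The double of `V`. -/
def Vt : Subgroup G := RR (XX O y 0) ⊔ RR (XX O y 1)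

/-- The double of `W`. -/
def Et : Subgroup G := ncl (Vt O y) O.C

/-- The double of the root group `5`. -/
def Ut : Subgroup G := Et O y ⊓ Cs (T5c O)

/-- The double of `D`. -/
def At : Subgroup G := Et O y ⊓ cj O.m (Et O y)

/-- `g` acts like an element of a torus. -/
def Tor (g : G) : Prop :=
  (∀ k s, ∃ c, ∀ a, g * XX O y k s a * g⁻¹ = XX O y k s (c * a)) ∧ g ∈ Ns (Ut O y)

/-- The relabelled root elements. -/
def Xd (δ : Bool) (k : ZMod 8) (s : Bool) (a : K) : G :=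
  XX O y k (xor s (δ && k.val % 2 == 1)) a

/-- The relabelled root elements of the odd roots. -/
def Bd (B : Bool → Bool → K → G) (δ : Bool) (k : ZMod 8) (s : Bool) (a : K) : G :=
  rot O (k + 1) (B (xor s (δ && k.val % 2 == 1)) (xor s (δ && k.val % 2 == 1) != δ) a)

end

/-- Facts about the group `O.GG`. -/
structure MF : Prop where
  cls : ∀ l ∈ O.GG, l * l = 1 → l = 1 ∨
    ∃ g ∈ O.GG, g * l * g⁻¹ = O.ι (x4 1) ∨ g * l * g⁻¹ = O.ι (x5 1)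
  s5 : IsSylowIn 2 ((T5 K).map O.ι) (O.GG ⊓ C1 (O.ι (x5 1)))
  g5 : ∀ a ∈ T5 K, ∀ b ∈ T5 K, ∀ c ∈ T5 K, ∀ d ∈ T5 K, ∀ e ∈ T5 K, c5 a b c d e ∈ Z K
  g5' : ∃ a ∈ T5 K, ∃ b ∈ T5 K, ∃ c ∈ T5 K, ∃ d ∈ T5 K, ∃ e ∈ T5 K, c5 a b c d e ≠ 1
  i10 : ∀ l ∈ O.GG, l * l = 1 → ∃ T : Subgroup G, IsPGroup 2 T ∧ T ≤ O.GG ⊓ C1 l ∧
    Nat.card K ^ 10 ≤ Nat.card T
  cH : ∀ g ∈ O.GG, g ∈ Cs O.h.range → ∃ a ∈ S4 O, ∃ β, g = a * O.h β
  sz : ∃ M : SzModel (τK K) (S4 O), (∀ a b, (M.T a b : G) = O.ι (y4 a * x4 b)) ∧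
    (M.w : G) = n4 O ∧ ∀ β, (M.D β : G) = h4 O β

/-- The standard form hypothesis. -/
structure Hy (t : G) : Prop where
  big : 8 ≤ Nat.card K
  t2 : t * t = 1
  t1 : t ≠ 1
  tc : t ∈ Cs O.GG
  cn : C1 t ≤ Ns O.GG
  cyc : ∀ P : Subgroup G, IsPGroup 2 P → P ≤ Cs O.GG → IsCyclic P
  out : ∀ g ∈ Ns O.GG, ∀ k : ℕ, g ^ 2 ^ k = 1 → ∃ l ∈ O.GG, l⁻¹ * g ∈ Cs O.GG
  fus : ∃ g, g * t * g⁻¹ ≠ t ∧ Commute (g * t * g⁻¹) t
  mul : ∀ (H : Subgroup G) (φ : H →* G), φ.range = O.GG → φ.ker ≤ center H → ⁅H, H⁆ = H →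
    Injective φ

/-- With the facts about the model. -/
structure H0 (t : G) : Prop extends Hy O t, MF O where
  fac : ∀ g ∈ Ns O.GG, g ∈ Cs O.Z → ∃ c ∈ O.C, c⁻¹ * g ∈ Cs O.GG

/-- After the fusion analysis. -/
structure H1 (t : G) : Prop extends H0 O t where
  two : ∀ c ∈ Cs O.GG, Commute c t → ∀ k : ℕ, c ^ 2 ^ k = 1 → c = 1 ∨ c = t
  tr : ∀ b, ∃ g ∈ Cs O.h.range, g ∈ Ns O.Z ∧ g ∈ Ns O.C ∧ g * t * g⁻¹ = t * O.ι (x4 b)

/-- After the Suzuki step. -/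
structure HY (t : G) (y : Bool → K → G) : Prop extends H1 O t, Tr y (n4 O) where
  mem : ∀ s a, y s a ∈ Cs O.h.range
  swap : ∀ s a, t * y s a * t⁻¹ = y (!s) a
  prod : ∀ a, y true a * y false a = O.ι (x4 a)
  cQ : ∀ s a, ∀ u ∈ U4 K, Commute (y s a) (O.ι u)
  dm : ∀ β, h4 O β ∈ HH y (n4 O)
  nR : ∀ g ∈ Cs O.h.range, g ∈ Ns O.Z → g ∈ Ns (RR y)

/-- The new root elements centralise `C`. -/
structure H2 (t : G) (y : Bool → K → G) : Prop extends HY O t y where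
  cC : ∀ s a, y s a ∈ Cs O.C

/-- Neighbouring root groups commute. -/
structure H3 (t : G) (y : Bool → K → G) : Prop extends H2 O t y where
  c1 : ∀ s s' a b, Commute (XX O y 0 s a) (XX O y 1 s' b)
  nU : ∀ u, O.ι u ∈ Ns (Vt O y)
  cK : KK (XX O y 0) (wk O 0) ≤ Cs (KK (XX O y 2) (wk O 2))

/-- The group `Et`. -/
structure H4 (t : G) (y : Bool → K → G) : Prop extends H3 O t y where
  Ec : ∀ g ∈ Et O y, ∀ g' ∈ Et O y, Commute g g'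
  E2 : ∀ g ∈ Et O y, g * g = 1
  EW : ∀ u ∈ W K, O.ι u ∈ Et O y
  Eτ : ∀ g ∈ Et O y, ∃ u ∈ W K, t * g * t⁻¹ * g = O.ι u
  Ek : ∀ g ∈ Et O y, Commute g t → ∃ u ∈ W K, g = O.ι u
  Es : ∀ u ∈ W K, ∃ g ∈ Et O y, t * g * t⁻¹ * g = O.ι u
  E4 : ∀ g ∈ Et O y, ∀ u ∈ U4 K, Commute g (O.ι u)
  EO : ∀ g ∈ Et O y, ∀ o, Od O t o → Commute o g
  Eη : ∀ p, O.η p ∈ Ns (Et O y)
  Et' : t ∈ Ns (Et O y)

/-- The groups `Ut` and `At`. -/
structure H5 (t : G) (y : Bool → K → G) : Prop extends H4 O t y where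
  R6 : ∀ g ∈ Et O y, (∀ β, Commute g (O.m * O.h β * O.m⁻¹)) → g ∈ RR (XX O y 1)
  Um : O.m ∈ Ns (Ut O y)
  Uτ : ∀ g ∈ Ut O y, ∃ b, t * g * t⁻¹ * g = O.ι (x5 b)
  Uk : ∀ g ∈ Ut O y, Commute g t → ∃ b, g = O.ι (x5 b)
  Us : ∀ b, ∃ g ∈ Ut O y, t * g * t⁻¹ * g = O.ι (x5 b)
  U5 : ∀ b, O.ι (x5 b) ∈ Ut O y
  Ad : ∀ g, g ∈ At O y ↔ ∃ r ∈ RR (XX O y 0), ∃ u ∈ Ut O y, ∃ r' ∈ RR (XX O y 1), g = r * u * r'
  Ai : ∀ r ∈ RR (XX O y 0), ∀ u ∈ Ut O y, ∀ r' ∈ RR (XX O y 1), r * u * r' = 1 →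
    r = 1 ∧ u = 1 ∧ r' = 1

/-- The commutators at distance three. -/
structure H6 (t : G) (y : Bool → K → G) : Prop extends H5 O t y where
  cE : ∀ s a, ∀ g ∈ Et O y, ⁅XX O y 2 s a, g⁆ ∈ At O y
  nE : KK (XX O y 2) (wk O 2) ≤ Ns (Et O y)

/-- The big torus. -/
structure H7 (t : G) (y : Bool → K → G) : Prop extends H6 O t y where
  tH0 : ∀ g ∈ HH (XX O y 0) (wk O 0), Tor O y g
  tH2 : ∀ g ∈ HH (XX O y 2) (wk O 2), Tor O y g

/-- The structure constants. -/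
structure H8 (t : G) (y : Bool → K → G) (δ : Bool) (B : Bool → Bool → K → G) : Prop
    extends H7 O t y where
  Bm : ∀ e f c, B e f c ∈ Ut O y
  Ba : ∀ e f c d, B e f (c + d) = B e f c * B e f d
  r1 : ∀ e a b, ⁅XX O y 7 e a, XX O y 2 (e == δ) b⁆ =
    XX O y 0 (e == δ) (σ a * b) * B e (e == δ) (a * b) * XX O y 1 e (a * σ b)
  r2 : ∀ e a b, ⁅XX O y 7 e a, XX O y 2 (e != δ) b⁆ = B e (e != δ) (a * b)
  Bt : ∀ e f c, t * B e f c * t⁻¹ = B (!e) (!f) c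
  Bw : ∀ e f c, O.m * B e f c * O.m⁻¹ = B f e c
  Bs : ∀ c, B true true c * B true false c * B false true c * B false false c = O.ι (x5 c)

/-- The case of `F₄(q)`. -/
structure H9 (t : G) (y : Bool → K → G) (δ : Bool) (B : Bool → Bool → K → G) : Prop
    extends H8 O t y δ B where
  B1 : ∀ e c, B e (e == δ) c = 1
  r3 : ∀ e a b, ⁅XX O y 6 (e != δ) a, B e (e != δ) b⁆ = XX O y 7 e (a * b)
  c3 : ∀ e a b, Commute (XX O y 6 (e == δ) a) (B e (e != δ) b)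

theorem Xs_eq_1' : type_of% @Xs.eq_1 := @Xs.eq_1
theorem RR_eq_1' : type_of% @RR.eq_1 := @RR.eq_1
theorem KK_eq_1' : type_of% @KK.eq_1 := @KK.eq_1
theorem HH_eq_1' : type_of% @HH.eq_1 := @HH.eq_1
theorem YW_eq_1' : type_of% @YW.eq_1 := @YW.eq_1
theorem YP_eq_1' : type_of% @YP.eq_1 := @YP.eq_1
theorem SpF_eq_1' : type_of% @SpF.eq_1 := @SpF.eq_1
theorem c5_eq_1' : type_of% @c5.eq_1 := @c5.eq_1
theorem Con_eq_1' : type_of% @Con.eq_1 := @Con.eq_1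
theorem τK_eq_1' : type_of% @τK.eq_1 := @τK.eq_1
theorem j5_eq_1' : type_of% @j5.eq_1 := @j5.eq_1
theorem rw_eq_1' : type_of% @rw.eq_1 := @rw.eq_1
theorem rot_eq_1' : type_of% @rot.eq_1 := @rot.eq_1
theorem cz_eq_1' : type_of% @cz.eq_1 := @cz.eq_1
theorem n4_eq_1' : type_of% @n4.eq_1 := @n4.eq_1
theorem h4_eq_1' : type_of% @h4.eq_1 := @h4.eq_1
theorem S8_eq_1' : type_of% @S8.eq_1 := @S8.eq_1
theorem S4_eq_1' : type_of% @S4.eq_1 := @S4.eq_1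
theorem wk_eq_1' : type_of% @wk.eq_1 := @wk.eq_1
theorem T5c_eq_1' : type_of% @T5c.eq_1 := @T5c.eq_1
theorem Od_eq_1' : type_of% @Od.eq_1 := @Od.eq_1
theorem XX_eq_1' : type_of% @XX.eq_1 := @XX.eq_1
theorem Vt_eq_1' : type_of% @Vt.eq_1 := @Vt.eq_1
theorem Et_eq_1' : type_of% @Et.eq_1 := @Et.eq_1
theorem Ut_eq_1' : type_of% @Ut.eq_1 := @Ut.eq_1
theorem At_eq_1' : type_of% @At.eq_1 := @At.eq_1
theorem Tor_eq_1' : type_of% @Tor.eq_1 := @Tor.eq_1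
theorem Xd_eq_1' : type_of% @Xd.eq_1 := @Xd.eq_1
theorem Bd_eq_1' : type_of% @Bd.eq_1 := @Bd.eq_1

end Cfsg.Lib.SRe
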